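import Mathlib
import Cfsg.Agent.Lib.Helper9.S3805.Defs

/-!
# S3805, package TISum

Summation of a class function against `Θ = 1 + E - F`, which is `3` on the conjugates of
`A1` and `0` elsewhere.
-/

set_option autoImplicit false

namespace Cfsg.Agent.Lib.Helper93.S3805

open Cfsg.Agent.Lib.Helper9.S3805

universe u

set_option maxRecDepth 100000 in
theorem inA1_conj : ∀ p q : P, inA1 p = true → inA1 (q⁻¹ * p * q) = true := by decide

theorem card_P : Fintype.card P = 36 := by decide

theorem irr_class {G : Type u} [Group G] {χ : G → ℂ} (h : Cfsg.IsIrrCharacter G χ) (g x : G) :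
    χ (x * g * x⁻¹) = χ g := by
  obtain ⟨n, ρ, _, rfl⟩ := h
  exact Representation.char_conj ρ g x

theorem pkgTISum : PkgTISum.{u} := by
  intro hTIA G _ _ T M hLoc E F hEx φ hφ
  classical
  set A : Finset P := Finset.univ.filter (fun p : P => inA1 p = true) with hA
  set c : G → ℕ := fun g => (((Finset.univ : Finset G) ×ˢ A).filter
    (fun xp => xp.1 * M.ψ xp.2 * xp.1⁻¹ = g)).card with hc
  have hkey : ∀ g : G, (c g : ℂ) = 12 * (1 + E g - F g) := by
    intro g
    by_cases hg : ∃ (x : G) (p : P), inA1 p = true ∧ x * g * x⁻¹ = M.ψ p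
    · obtain ⟨x₀, p₀, hp₀, hx₀⟩ := hg
      have hE : E g = E (M.ψ p₀) := by rw [← hx₀, irr_class hEx.irrE]
      have hF : F g = F (M.ψ p₀) := by rw [← hx₀, irr_class hEx.irrF]
      have hon := hEx.on p₀ hp₀
      have hcg : c g = 36 := by
        have hset : (((Finset.univ : Finset G) ×ˢ A).filter
            (fun xp => xp.1 * M.ψ xp.2 * xp.1⁻¹ = g)) =
            (Finset.univ : Finset P).image (fun q => (x₀⁻¹ * M.ψ q, q⁻¹ * p₀ * q)) := by
          ext ⟨x, p⟩
          simp only [hA, Finset.mem_filter, Finset.mem_product, Finset.mem_univ, true_and,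
            Finset.mem_image, Prod.mk.injEq]
          constructor
          · rintro ⟨hp, hxp⟩
            have hconj : (x₀ * x) * M.ψ p * (x₀ * x)⁻¹ = M.ψ p₀ := by
              rw [← hx₀, ← hxp]; group
            have hN := hTIA T M hLoc (x₀ * x) p p₀ hp hconj
            rw [← M.range_eq] at hN
            obtain ⟨q, hq⟩ := hN
            refine ⟨q, ?_, ?_⟩
            · rw [hq]; group
            · apply M.inj
              rw [map_mul, map_mul, map_inv, ← hconj, hq]; group
          · rintro ⟨q, rfl, rfl⟩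
            refine ⟨inA1_conj p₀ q hp₀, ?_⟩
            rw [map_mul, map_mul, map_inv, ← hx₀]; group
        rw [hc]
        show (((Finset.univ : Finset G) ×ˢ A).filter
            (fun xp => xp.1 * M.ψ xp.2 * xp.1⁻¹ = g)).card = 36
        rw [hset, Finset.card_image_of_injective, Finset.card_univ, card_P]
        intro q q' h
        have h1 := congrArg Prod.fst h
        simp only [mul_right_inj] at h1
        exact M.inj h1
      rw [hcg, hE, hF]
      push_cast
      linear_combination (12 : ℂ) * hon
    · have hg' : ∀ (x : G) (p : P), inA1 p = true → x * g * x⁻¹ ≠ M.ψ p :=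
        fun x p hp h => hg ⟨x, p, hp, h⟩
      have hoff := hEx.off g hg'
      have hcg : c g = 0 := by
        rw [hc]
        show (((Finset.univ : Finset G) ×ˢ A).filter
            (fun xp => xp.1 * M.ψ xp.2 * xp.1⁻¹ = g)).card = 0
        rw [Finset.card_eq_zero, Finset.filter_eq_empty_iff]
        rintro ⟨x, p⟩ hxp hxp2
        simp only [hA, Finset.mem_filter, Finset.mem_product, Finset.mem_univ, true_and] at hxp
        apply hg' x⁻¹ p hxp
        rw [← hxp2]; group
      rw [hcg]
      push_cast
      linear_combination (12 : ℂ) * hoff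
  have h1 : ∑ xp ∈ ((Finset.univ : Finset G) ×ˢ A), φ (xp.1 * M.ψ xp.2 * xp.1⁻¹) =
      (Nat.card G : ℂ) * ∑ p : P, (if inA1 p = true then φ (M.ψ p) else 0) := by
    rw [Finset.sum_product]
    simp only [hφ]
    rw [Finset.sum_const, Finset.card_univ, nsmul_eq_mul, Nat.card_eq_fintype_card, hA,
      Finset.sum_filter]
  have h2 : ∑ xp ∈ ((Finset.univ : Finset G) ×ˢ A), φ (xp.1 * M.ψ xp.2 * xp.1⁻¹) =
      ∑ g : G, (c g : ℂ) * φ g := by
    rw [← Finset.sum_fiberwise_of_maps_to (s := (Finset.univ : Finset G) ×ˢ A)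
      (t := (Finset.univ : Finset G)) (g := fun xp => xp.1 * M.ψ xp.2 * xp.1⁻¹)
      (fun _ _ => Finset.mem_univ _)]
    apply Finset.sum_congr rfl
    intro g _
    rw [Finset.sum_congr rfl (fun xp hxp => by rw [(Finset.mem_filter.mp hxp).2]),
      Finset.sum_const, nsmul_eq_mul]
  rw [← h1, h2, Finset.mul_sum]
  apply Finset.sum_congr rfl
  intro g _
  rw [hkey g]
  ring

end Cfsg.Agent.Lib.Helper93.S3805
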