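import Mathlib
import Cfsg.Agent.Lib.Helper9.S3805.Defs
import Cfsg.Agent.Lib.Helper93.S3805.TISum

/-!
# S3805, package CCount, the counting half

For an involution `z`, the sum of `Θ = 1 + E - F` over the products of two conjugates of `z`
is computed from the trivial-intersection property of `A1`.
-/

set_option autoImplicit false

namespace Cfsg.Agent.Lib.Helper93.S3805

open Cfsg.Agent.Lib.Helper9.S3805

universe u

/-- The elements conjugating `z` to a given conjugate form a coset of the centralizer. -/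
theorem card_conj_fiber {G : Type u} [Group G] [Fintype G] [DecidableEq G] (z w g₀ : G)
    (h : g₀ * z * g₀⁻¹ = w) :
    ((Finset.univ : Finset G).filter (fun x => x * z * x⁻¹ = w)).card =
      Nat.card (Subgroup.centralizer ({z} : Set G)) := by
  rw [← Fintype.card_subtype, ← Nat.card_eq_fintype_card]
  apply Nat.card_congr
  subst h
  exact
    { toFun := fun x => ⟨g₀⁻¹ * x.1, by
        rw [Subgroup.mem_centralizer_iff]
        intro y hy
        rw [Set.mem_singleton_iff] at hy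
        subst hy
        have h1 := x.2
        calc y * (g₀⁻¹ * x.1) = g₀⁻¹ * (g₀ * y * g₀⁻¹) * x.1 := by group
          _ = g₀⁻¹ * (x.1 * y * x.1⁻¹) * x.1 := by rw [h1]
          _ = g₀⁻¹ * x.1 * y := by group⟩
      invFun := fun c => ⟨g₀ * c.1, by
        have h1 := (Subgroup.mem_centralizer_iff.mp c.2) z rfl
        calc g₀ * c.1 * z * (g₀ * c.1)⁻¹ = g₀ * (c.1 * z) * c.1⁻¹ * g₀⁻¹ := by group
          _ = g₀ * (z * c.1) * c.1⁻¹ * g₀⁻¹ := by rw [h1]
          _ = g₀ * z * g₀⁻¹ := by group⟩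
      left_inv := fun x => by
        apply Subtype.ext
        simp
      right_inv := fun c => by
        apply Subtype.ext
        simp }

/-- The pairs of involutions of `P` in `Z` with a given product. -/
def pairsAt (Z : P → Bool) (p : P) : Finset (P × P) :=
  Finset.univ.filter (fun pq : P × P => pq.1 * pq.1 = 1 ∧ pq.1 ≠ 1 ∧ pq.2 * pq.2 = 1 ∧
    pq.2 ≠ 1 ∧ Z pq.1 = true ∧ Z pq.2 = true ∧ pq.1 * pq.2 = p)

theorem pairCount_eq_sum (Z : P → Bool) :
    pairCount Z = ∑ p ∈ Finset.univ.filter (fun p : P => inA1 p = true), (pairsAt Z p).card := by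
  unfold pairCount
  rw [Finset.card_eq_sum_card_fiberwise (f := fun pq : P × P => pq.1 * pq.2)
    (t := Finset.univ.filter (fun p : P => inA1 p = true))]
  · apply Finset.sum_congr rfl
    intro p hp
    rw [Finset.mem_filter] at hp
    congr 1
    ext pq
    simp only [pairsAt, Finset.mem_filter, Finset.mem_univ, true_and]
    constructor
    · rintro ⟨⟨h1, h2, h3, h4, h5, h6, _⟩, h8⟩
      exact ⟨h1, h2, h3, h4, h5, h6, h8⟩
    · rintro ⟨h1, h2, h3, h4, h5, h6, h8⟩
      exact ⟨⟨h1, h2, h3, h4, h5, h6, h8 ▸ hp.2⟩, h8⟩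
  · intro pq hpq
    rw [Finset.mem_coe, Finset.mem_filter] at hpq ⊢
    exact ⟨Finset.mem_univ _, hpq.2.2.2.2.2.2.2⟩

theorem invol_conj {G : Type*} [Group G] (u v : G) (hu : u * u = 1) (hv : v * v = 1) :
    u * (u * v) * u⁻¹ = (u * v)⁻¹ := by
  have huinv : u⁻¹ = u := inv_eq_of_mul_eq_one_left hu
  have hvinv : v⁻¹ = v := inv_eq_of_mul_eq_one_left hv
  rw [mul_inv_rev, huinv, hvinv, ← mul_assoc, hu, one_mul]

/-- The number of ways of writing `ψ p`, `p ∈ A1₀`, as a product of two conjugates of `z`. -/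
theorem card_pair_fiber (hTIA : PkgTIA.{u}) {G : Type u} [Group G] [Fintype G] [DecidableEq G]
    (T : Subgroup G) (M : Model G T) (hLoc : Loc T) (z : G) (hz : z * z = 1) (hz1 : z ≠ 1)
    (Z : P → Bool)
    (hZ : ∀ p : P, p * p = 1 → p ≠ 1 → (Z p = true ↔ ∃ g : G, g * z * g⁻¹ = M.ψ p))
    (p : P) (hp : inA1 p = true) :
    ((Finset.univ : Finset (G × G)).filter
      (fun xy => xy.1 * z * xy.1⁻¹ * (xy.2 * z * xy.2⁻¹) = M.ψ p)).card =
      Nat.card (Subgroup.centralizer ({z} : Set G)) ^ 2 * (pairsAt Z p).card := by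
  have hset : ((Finset.univ : Finset (G × G)).filter
      (fun xy => xy.1 * z * xy.1⁻¹ * (xy.2 * z * xy.2⁻¹) = M.ψ p)) =
      (pairsAt Z p).biUnion (fun pq =>
        ((Finset.univ : Finset G).filter (fun x => x * z * x⁻¹ = M.ψ pq.1)) ×ˢ
        ((Finset.univ : Finset G).filter (fun x => x * z * x⁻¹ = M.ψ pq.2))) := by
    ext ⟨x, y⟩
    simp only [Finset.mem_filter, Finset.mem_univ, true_and, Finset.mem_biUnion,
      Finset.mem_product, pairsAt]
    constructor
    · intro hxy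
      have hu2 : x * z * x⁻¹ * (x * z * x⁻¹) = 1 := by
        calc x * z * x⁻¹ * (x * z * x⁻¹) = x * (z * z) * x⁻¹ := by group
          _ = 1 := by rw [hz]; group
      have hv2 : y * z * y⁻¹ * (y * z * y⁻¹) = 1 := by
        calc y * z * y⁻¹ * (y * z * y⁻¹) = y * (z * z) * y⁻¹ := by group
          _ = 1 := by rw [hz]; group
      have hconj : (x * z * x⁻¹) * M.ψ p * (x * z * x⁻¹)⁻¹ = M.ψ p⁻¹ := by
        rw [map_inv, ← hxy]
        exact invol_conj _ _ hu2 hv2
      have hN := hTIA T M hLoc (x * z * x⁻¹) p p⁻¹ hp hconj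
      rw [← M.range_eq] at hN
      obtain ⟨p₁, hp₁⟩ := hN
      have hp₂ : M.ψ (p₁⁻¹ * p) = y * z * y⁻¹ := by
        rw [map_mul, map_inv, hp₁, ← hxy, inv_mul_cancel_left]
      have hu1 : x * z * x⁻¹ ≠ 1 := by
        intro h
        apply hz1
        calc z = x⁻¹ * (x * z * x⁻¹) * x := by group
          _ = 1 := by rw [h]; group
      have hv1 : y * z * y⁻¹ ≠ 1 := by
        intro h
        apply hz1
        calc z = y⁻¹ * (y * z * y⁻¹) * y := by group
          _ = 1 := by rw [h]; group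
      have h11 : p₁ * p₁ = 1 := by
        apply M.inj
        rw [map_mul, hp₁, hu2, map_one]
      have h12 : p₁ ≠ 1 := by
        intro h
        rw [h, map_one] at hp₁
        exact hu1 hp₁.symm
      have h21 : (p₁⁻¹ * p) * (p₁⁻¹ * p) = 1 := by
        apply M.inj
        rw [map_mul, hp₂, hv2, map_one]
      have h22 : p₁⁻¹ * p ≠ 1 := by
        intro h
        rw [h, map_one] at hp₂
        exact hv1 hp₂.symm
      exact ⟨(p₁, p₁⁻¹ * p), ⟨h11, h12, h21, h22, (hZ p₁ h11 h12).mpr ⟨x, hp₁.symm⟩,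
        (hZ _ h21 h22).mpr ⟨y, hp₂.symm⟩, mul_inv_cancel_left _ _⟩, hp₁.symm, hp₂.symm⟩
    · rintro ⟨pq, ⟨_, _, _, _, _, _, h7⟩, hx, hy⟩
      rw [hx, hy, ← map_mul, h7]
  rw [hset, Finset.card_biUnion]
  · rw [Finset.sum_congr rfl (g := fun _ => Nat.card (Subgroup.centralizer ({z} : Set G)) ^ 2)]
    · rw [Finset.sum_const, smul_eq_mul, mul_comm]
    · intro pq hpq
      simp only [pairsAt, Finset.mem_filter, Finset.mem_univ, true_and] at hpq
      obtain ⟨h1, h2, h3, h4, h5, h6, _⟩ := hpq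
      obtain ⟨g₁, hg₁⟩ := (hZ pq.1 h1 h2).mp h5
      obtain ⟨g₂, hg₂⟩ := (hZ pq.2 h3 h4).mp h6
      rw [Finset.card_product, card_conj_fiber z _ g₁ hg₁, card_conj_fiber z _ g₂ hg₂, sq]
  · intro pq _ pq' _ hne
    show Disjoint _ _
    rw [Finset.disjoint_left]
    rintro ⟨x, y⟩ hxy hxy'
    simp only [Finset.mem_product, Finset.mem_filter, Finset.mem_univ, true_and] at hxy hxy'
    apply hne
    apply Prod.ext
    · exact M.inj (hxy.1.symm.trans hxy'.1)
    · exact M.inj (hxy.2.symm.trans hxy'.2)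

/-- **CCount, counting half**: the sum of `Θ` over the products of two conjugates of `z`. -/
theorem ccountB (hTIA : PkgTIA.{u}) (hTISum : PkgTISum.{u}) {G : Type u} [Group G] [Fintype G]
    (T : Subgroup G) (M : Model G T) (hLoc : Loc T) (E F : G → ℂ) (hEx : Exc1 M E F) (z : G)
    (hz : z * z = 1) (hz1 : z ≠ 1) (Z : P → Bool)
    (hZ : ∀ p : P, p * p = 1 → p ≠ 1 → (Z p = true ↔ ∃ g : G, g * z * g⁻¹ = M.ψ p)) :
    12 * ∑ x : G, ∑ y : G, (1 + E (x * z * x⁻¹ * (y * z * y⁻¹)) -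
        F (x * z * x⁻¹ * (y * z * y⁻¹))) =
      (Nat.card G : ℂ) * ((Nat.card (Subgroup.centralizer ({z} : Set G)) : ℂ) ^ 2 *
        ((pairCount Z : ℕ) : ℂ)) := by
  classical
  set φ : G → ℂ := fun g => (((Finset.univ : Finset (G × G)).filter
      (fun xy => xy.1 * z * xy.1⁻¹ * (xy.2 * z * xy.2⁻¹) = g)).card : ℂ) with hφ
  have hclass : ∀ g w : G, φ (w * g * w⁻¹) = φ g := by
    intro g w
    rw [hφ]
    show ((((Finset.univ : Finset (G × G)).filter
      (fun xy => xy.1 * z * xy.1⁻¹ * (xy.2 * z * xy.2⁻¹) = w * g * w⁻¹)).card : ℕ) : ℂ) =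
      (((Finset.univ : Finset (G × G)).filter
      (fun xy => xy.1 * z * xy.1⁻¹ * (xy.2 * z * xy.2⁻¹) = g)).card : ℂ)
    congr 1
    apply Finset.card_nbij' (fun xy => (w⁻¹ * xy.1, w⁻¹ * xy.2)) (fun xy => (w * xy.1, w * xy.2))
    · rintro ⟨x, y⟩ hxy
      rw [Finset.mem_coe, Finset.mem_filter] at hxy ⊢
      refine ⟨Finset.mem_univ _, ?_⟩
      have hxy2 := hxy.2
      simp only at hxy2 ⊢
      calc w⁻¹ * x * z * (w⁻¹ * x)⁻¹ * (w⁻¹ * y * z * (w⁻¹ * y)⁻¹)
          = w⁻¹ * (x * z * x⁻¹ * (y * z * y⁻¹)) * w := by group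
        _ = g := by rw [hxy2]; group
    · rintro ⟨x, y⟩ hxy
      rw [Finset.mem_coe, Finset.mem_filter] at hxy ⊢
      refine ⟨Finset.mem_univ _, ?_⟩
      have hxy2 := hxy.2
      simp only at hxy2 ⊢
      calc w * x * z * (w * x)⁻¹ * (w * y * z * (w * y)⁻¹)
          = w * (x * z * x⁻¹ * (y * z * y⁻¹)) * w⁻¹ := by group
        _ = w * g * w⁻¹ := by rw [hxy2]
    · rintro ⟨x, y⟩ _
      simp
    · rintro ⟨x, y⟩ _
      simp
  have hT := hTISum hTIA T M hLoc E F hEx φ hclass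
  have h1 : ∑ x : G, ∑ y : G, (1 + E (x * z * x⁻¹ * (y * z * y⁻¹)) -
      F (x * z * x⁻¹ * (y * z * y⁻¹))) = ∑ g : G, (1 + E g - F g) * φ g := by
    rw [← Finset.sum_product', ← Finset.sum_fiberwise_of_maps_to
      (s := (Finset.univ : Finset G) ×ˢ (Finset.univ : Finset G))
      (t := (Finset.univ : Finset G)) (g := fun xy => xy.1 * z * xy.1⁻¹ * (xy.2 * z * xy.2⁻¹))
      (fun _ _ => Finset.mem_univ _)]
    apply Finset.sum_congr rfl
    intro g _
    rw [Finset.sum_congr rfl (fun xy hxy => by rw [(Finset.mem_filter.mp hxy).2]),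
      Finset.sum_const, nsmul_eq_mul, mul_comm, hφ, Finset.univ_product_univ]
  have h2 : ∑ p : P, (if inA1 p = true then φ (M.ψ p) else 0) =
      (Nat.card (Subgroup.centralizer ({z} : Set G)) : ℂ) ^ 2 * ((pairCount Z : ℕ) : ℂ) := by
    rw [pairCount_eq_sum, ← Finset.sum_filter]
    push_cast
    rw [Finset.mul_sum]
    apply Finset.sum_congr rfl
    intro p hp
    rw [Finset.mem_filter] at hp
    rw [hφ]
    show ((((Finset.univ : Finset (G × G)).filter
      (fun xy => xy.1 * z * xy.1⁻¹ * (xy.2 * z * xy.2⁻¹) = M.ψ p)).card : ℕ) : ℂ) = _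
    rw [card_pair_fiber hTIA T M hLoc z hz hz1 Z hZ p hp.2]
    push_cast
    ring
  rw [h1, hT, h2]

end Cfsg.Agent.Lib.Helper93.S3805
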